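import Cfsg.Agent.H985.VZ.Fix

/-!
# S4842: coordinates of the `T`-characters (helper650)

* `act A j v`  : the simple reflection `s_j` on a vector of coordinates `v i = ⟨v, α_i^∨⟩` in any additive group;
* `app m v`    : an integer matrix applied to such a vector; `mulS A j m` the matrix `s_j m`;
* `TCo A T n hh` : `hh i : E →* T` generate `T` and `n_j (hh i x) n_j⁻¹ = hh i x * (hh j x)^(-A i j)`;
* `co hh l`    : the coordinates `l ∘ hh i` of the `T`-character `l`;
* `exists_mat` : the elements of `W_J` through a list of matrices closed under `mulS A j`, `j ∈ J`;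
* `NP`         : no `W_J`-conjugate of `l` has its stabiliser in `W_J` inside a proper parabolic subgroup;
* `NP.exists_mat` : what it says in coordinates; `exists_orb` : the orbit of `i ↦ μ i • c`;
* `VU_eq_of_forall`, `Vl_one` : only `l = 1` in `V^U`: `V^U = V^B`.
-/

set_option autoImplicit false
set_option linter.unusedSectionVars false

open Cfsg

namespace Cfsg.Agent.H650.OZ

open CoxeterSystem Cfsg.Agent.ChevalleyStructure.CoxeterGeom Cfsg.Agent.Tits.Roots Cfsg.Agent.Tits.Core
  Cfsg.Agent.Tits.Exchange Cfsg.Agent.Nodes.Reps Cfsg.Agent.Nodes.BNOf Cfsg.Agent.Nodes.StabComb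
  Cfsg.Agent.Nodes.Bruhat Cfsg.Agent.Nodes.OppDec Cfsg.Agent.Nodes.LeviDec Cfsg.Agent.H985.VZ

universe u

section Act

variable {I : Type*} {G : Type*} [AddCommGroup G]

/-- the simple reflections in the coordinates `⟨·, α_i^∨⟩` -/
def act (A : I → I → ℤ) (j : I) (v : I → G) : I → G := fun i => v i - A i j • v j

/-- a product of simple reflections -/
def actw (A : I → I → ℤ) : List I → (I → G) → (I → G)
  | [], v => v
  | j :: ω, v => act A j (actw A ω v)

/-- an integer matrix acting on a vector -/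
def app [Fintype I] (m : I → I → ℤ) (v : I → G) : I → G := fun i => ∑ k, m i k • v k

/-- the matrix of the simple reflection times `m` -/
def mulS (A : I → I → ℤ) (j : I) (m : I → I → ℤ) : I → I → ℤ := fun i k => m i k - A i j * m j k

/-- the identity matrix -/
def idM [DecidableEq I] : I → I → ℤ := fun i k => if i = k then 1 else 0

variable [Fintype I] {A : I → I → ℤ}

theorem app_mulS (j : I) (m : I → I → ℤ) (v : I → G) : app (mulS A j m) v = act A j (app m v) := by
  funext i
  unfold act app mulS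
  rw [Finset.smul_sum, ← Finset.sum_sub_distrib]
  exact Finset.sum_congr rfl fun k _ => by rw [sub_smul, mul_smul]

theorem app_idM [DecidableEq I] (v : I → G) : app idM v = v := by
  funext i
  unfold app idM
  rw [Finset.sum_eq_single i (fun b _ hb => by rw [if_neg (Ne.symm hb), zero_smul]) (by simp), if_pos rfl, one_smul]

/-- integer multiples of one element -/
theorem app_smul (m : I → I → ℤ) (μ : I → ℤ) (c : G) : app m (fun i => μ i • c) = fun i => app m μ i • c := by
  funext i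
  unfold app
  rw [Finset.sum_smul]
  exact Finset.sum_congr rfl fun k _ => by rw [smul_eq_mul, mul_smul]

omit [Fintype I] in
theorem act_smul (j : I) (μ : I → ℤ) (c : G) : act A j (fun i => μ i • c) = fun i => act A j μ i • c := by
  funext i
  unfold act
  rw [sub_smul, smul_eq_mul, mul_smul]

omit [Fintype I] in
theorem actw_smul (ω : List I) (μ : I → ℤ) (c : G) :
    actw A ω (fun i => μ i • c) = fun i => actw A ω μ i • c := by
  induction ω with
  | nil => rfl
  | cons j ω ih => rw [actw, actw, ih, act_smul]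

/-- a linear relation from a fixed vector -/
theorem rel_of_app_eq [DecidableEq I] {m : I → I → ℤ} {v : I → G} (hv : app m v = v) (c d : I → ℤ)
    (hcd : ∀ k, ∑ i, c i * (m i k - idM i k) = d k) : ∑ k, d k • v k = 0 := by
  have h1 : ∀ i, ∑ k, (m i k - idM i k) • v k = 0 := by
    intro i
    have h2 := congrFun hv i
    have h3 := congrFun (app_idM (I := I) v) i
    unfold app at h2 h3
    simp only [sub_smul, Finset.sum_sub_distrib]
    rw [h2, h3, sub_self]
  calc ∑ k, d k • v k = ∑ k, ∑ i, (c i * (m i k - idM i k)) • v k :=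
        Finset.sum_congr rfl fun k _ => by rw [← hcd k, Finset.sum_smul]
    _ = ∑ i, ∑ k, (c i * (m i k - idM i k)) • v k := Finset.sum_comm
    _ = ∑ i, c i • ∑ k, (m i k - idM i k) • v k :=
        Finset.sum_congr rfl fun i _ => by
          rw [Finset.smul_sum]
          exact Finset.sum_congr rfl fun k _ => mul_smul _ _ _
    _ = 0 := Finset.sum_eq_zero fun i _ => by rw [h1 i, smul_zero]

end Act

section Co

variable {I W : Type*} {Y : Type u} [Fintype I] [DecidableEq I] [Group W] [Group Y] {M : CoxeterMatrix I}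
  {cs : CoxeterSystem M W} {A : I → I → ℤ} {h : IsCartan M A} {T : Subgroup Y} {n : I → Y} {hN : NSys M T n}
  {E : Type*} [CommGroup E] {hh : I → E →* T}

/-- coordinates of the torus -/
structure TCo (A : I → I → ℤ) (T : Subgroup Y) (n : I → Y) {E : Type*} [CommGroup E] (hh : I → E →* T) : Prop where
  gen : ⨆ i, (hh i).range = ⊤
  conj : ∀ i j x, n j * (hh i x : Y) * (n j)⁻¹ = ((hh i x * hh j x ^ (-A i j) : T) : Y)

/-- the coordinates of a character of the torus -/
def co (hh : I → E →* T) (l : T →* ℂˣ) (i : I) : Additive (E →* ℂˣ) := Additive.ofMul (l.comp (hh i))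

theorem co_apply (l : T →* ℂˣ) (i : I) (x : E) : (co hh l i).toMul x = l (hh i x) := rfl

theorem co_inj (C : TCo A T n hh) {l l' : T →* ℂˣ} (e : co hh l = co hh l') : l = l' := by
  have h1 : ∀ t ∈ ⨆ i, (hh i).range, l t = l' t := by
    intro t ht
    induction ht using Subgroup.iSup_induction' with
    | hp i t ht =>
      obtain ⟨x, rfl⟩ := ht
      rw [← co_apply (hh := hh) l i x, ← co_apply (hh := hh) l' i x, e]
    | h1 => rw [map_one, map_one]
    | hmul a b _ _ ha hb => rw [map_mul, map_mul, ha, hb]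
  refine MonoidHom.ext fun t => h1 t ?_
  rw [C.gen]
  exact Subgroup.mem_top t

theorem co_one : co hh (1 : T →* ℂˣ) = 0 := by
  funext i
  rfl

theorem eq_one_of_co (C : TCo A T n hh) {l : T →* ℂˣ} (e : ∀ i, co hh l i = 0) : l = 1 :=
  co_inj C (by rw [co_one]; exact funext e)

theorem co_mv (C : TCo A T n hh) (h : IsCartan M A) {j : I} {l l' : T →* ℂˣ} (hm : Mv cs hN (cs.simple j) l l') :
    co hh l' = act A j (co hh l) := by
  have h1 : ∀ i x, l' (hh i x) * l' (hh j x) ^ (-A i j) = l (hh i x) := by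
    intro i x
    have := hm (n j) (rp_simple cs hN j) (hh i x * hh j x ^ (-A i j)) (hh i x) (C.conj i j x).symm
    rwa [map_mul, map_zpow] at this
  have h2 : ∀ x, l' (hh j x) = (l (hh j x))⁻¹ := by
    intro x
    have h3 := h1 j x
    rw [h.diag j] at h3
    rw [← h3]
    group
  funext i
  apply Additive.toMul.injective
  refine MonoidHom.ext fun x => ?_
  change l' (hh i x) = ((l.comp (hh i)) / (l.comp (hh j)) ^ (A i j)) x
  rw [MonoidHom.div_apply, MonoidHom.comp_apply]
  have h4 : ((l.comp (hh j)) ^ (A i j)) x = l (hh j x) ^ (A i j) :=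
    map_zpow (MonoidHom.eval x : (E →* ℂˣ) →* ℂˣ) (l.comp (hh j)) (A i j)
  rw [h4, ← h1 i x, h2, inv_zpow', neg_neg, mul_div_assoc, div_self', mul_one]

theorem pairing_simple (j : I) (x : I → ℤ) (i : I) :
    pairing A i (rep cs h (cs.simple j) x) = act A j (fun i => pairing A i x) i := by
  rw [rep_simple_eq]
  unfold act pairing
  simp only [Pi.sub_apply, Pi.smul_apply, smul_eq_mul, mul_sub, Finset.sum_sub_distrib]
  congr 1
  rw [Finset.sum_eq_single j (fun b _ hb => by rw [sr_ne hb, mul_zero, mul_zero]) (by simp), sr_self, mul_one]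

/-- the elements of `W_J` as matrices -/
theorem exists_mat (C : TCo A T n hh) (S : List (I → I → ℤ)) {J : Set I} (h1 : idM ∈ S)
    (hS : ∀ m ∈ S, ∀ j ∈ J, mulS A j m ∈ S) {w : W} (hw : w ∈ WJ cs J) :
    ∃ m ∈ S, (∀ l l', Mv cs hN w l l' → co hh l' = app m (co hh l)) ∧
      ∀ x, (fun i => pairing A i (rep cs h w x)) = app m (fun i => pairing A i x) := by
  obtain ⟨ω, hω, rfl⟩ := exists_word_of_mem_WJ cs hw
  clear hw
  induction ω with
  | nil =>
    refine ⟨idM, h1, fun l l' hm => ?_, fun x => ?_⟩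
    · rw [wordProd_nil] at hm
      rw [app_idM, (mv_one l).unique hm]
    · rw [wordProd_nil, map_one, app_idM]
      rfl
  | cons j ω ih =>
    obtain ⟨m, hmS, hm1, hm2⟩ := ih fun k hk => hω k (List.mem_cons_of_mem _ hk)
    refine ⟨mulS A j m, hS m hmS j (hω j (List.mem_cons_self ..)), fun l l' hm => ?_, fun x => ?_⟩
    · obtain ⟨l'', hl''⟩ := exists_mv_to (cs := cs) (hN := hN) (cs.wordProd ω) l
      obtain ⟨l3, hl3⟩ := exists_mv_to (cs := cs) (hN := hN) (cs.simple j) l''
      rw [wordProd_cons] at hm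
      rw [app_mulS, ← hm1 l l'' hl'', hm.unique (hl''.mul hl3), co_mv C h hl3]
    · rw [app_mulS, ← hm2 x, wordProd_cons]
      funext i
      rw [rep_mul_apply, pairing_simple]

/-- an element of `W` whose matrix fixes `y ≥ 0` lies in the parabolic subgroup of the zeros of `y` -/
theorem mem_WJ_of_app [Finite W] {w : W} {m : I → I → ℤ}
    (hm : ∀ x, (fun i => pairing A i (rep cs h w x)) = app m (fun i => pairing A i x)) {x y : I → ℤ}
    (hA : ∀ x : I → ℤ, (∀ i, pairing A i x = 0) → x = 0) (hx : ∀ i, pairing A i x = y i) (hy : 0 ≤ y)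
    (hmy : app m y = y) : w ∈ WJ cs {i | y i = 0} := by
  have e1 : (fun i => pairing A i x) = y := funext hx
  have h1 : rep cs h w x = x := by
    rw [← sub_eq_zero]
    refine hA _ fun i => ?_
    have h2 := congrFun (hm x) i
    rw [e1, hmy] at h2
    change pairing A i (rep cs h w x) = y i at h2
    have h3 : pairing A i (rep cs h w x - x) = pairing A i (rep cs h w x) - pairing A i x := by
      unfold pairing
      simp only [Pi.sub_apply, mul_sub, Finset.sum_sub_distrib]
    rw [h3, h2, hx i, sub_self]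
  have h2 := mem_WJ_of_rep (cs := cs) (h := h) (r := x) (fun i => by rw [hx i]; exact hy i) h1
  have h3 : orth cs h x = {i | y i = 0} := by
    ext i
    rw [mem_orth, hx i]
    rfl
  rwa [h3] at h2

variable (cs hN) in
/-- no `W_J`-conjugate of `l` has its stabiliser in `W_J` inside a proper parabolic subgroup -/
def NP (J : Set I) (l : T →* ℂˣ) : Prop :=
  ∀ v ∈ WJ cs J, ∀ l', Mv cs hN v l l' → ∀ K, K ⊂ J → ∃ w ∈ WJ cs J, w ∉ WJ cs K ∧ Mv cs hN w l' l'

theorem NP.mv {J : Set I} {l l' : T →* ℂˣ} (hl : NP cs hN J l) {v : W} (hv : v ∈ WJ cs J) (hm : Mv cs hN v l l') :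
    NP cs hN J l' := fun v' hv' l'' hm' K hK =>
  hl (v' * v) (mul_mem hv' hv) l'' (hm.mul hm') K hK

theorem NP.exists_actw (C : TCo A T n hh) (h : IsCartan M A) {J : Set I} {l : T →* ℂˣ} (hl : NP cs hN J l)
    (ω : List I) (hω : ∀ j ∈ ω, j ∈ J) : ∃ l', NP cs hN J l' ∧ co hh l' = actw A ω (co hh l) := by
  induction ω with
  | nil => exact ⟨l, hl, rfl⟩
  | cons j ω ih =>
    obtain ⟨l', hl', e⟩ := ih fun k hk => hω k (List.mem_cons_of_mem _ hk)
    obtain ⟨l'', hl''⟩ := exists_mv_to (cs := cs) (hN := hN) (cs.simple j) l'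
    refine ⟨l'', hl'.mv (simple_mem_WJ cs (hω j (List.mem_cons_self ..))) hl'', ?_⟩
    rw [co_mv C h hl'', e, actw]

/-- the stabilisers in coordinates: the columns of the matrices -/
theorem NP.exists_mat [Finite W] (C : TCo A T n hh) (h : IsCartan M A) {J : Set I} (S : List (I → I → ℤ)) (h1 : idM ∈ S)
    (hS : ∀ m ∈ S, ∀ j ∈ J, mulS A j m ∈ S) {l : T →* ℂˣ} (hl : NP cs hN J l)
    (hA : ∀ x : I → ℤ, (∀ i, pairing A i x = 0) → x = 0) (ω : List I) (hω : ∀ j ∈ ω, j ∈ J) {x y : I → ℤ}
    (hx : ∀ i, pairing A i x = y i) (hy : 0 ≤ y) (hyJ : {i | y i = 0} ⊂ J) :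
    ∃ m ∈ S, app m (actw A ω (co hh l)) = actw A ω (co hh l) ∧ app m y ≠ y := by
  obtain ⟨l', hl', e⟩ := hl.exists_actw C h ω hω
  obtain ⟨w, hw, hwK, hm⟩ := hl' 1 (one_mem _) l' (mv_one l') _ hyJ
  obtain ⟨m, hmS, hm1, hm2⟩ := OZ.exists_mat (h := h) (hN := hN) C S h1 hS hw
  refine ⟨m, hmS, ?_, fun hmy => hwK (mem_WJ_of_app hm2 hA hx hy hmy)⟩
  rw [← e]
  exact (hm1 l' l' hm).symm

/-- the orbit of a character whose coordinates are multiples of one element -/
theorem exists_orb (C : TCo A T n hh) (h : IsCartan M A) {c : Additive (E →* ℂˣ)} (O : List (I → ℤ))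
    (hO : ∀ μ ∈ O, ∀ j, ∃ ν ∈ O, ∀ i, act A j μ i • c = ν i • c) (w : W)
    {l : T →* ℂˣ} {μ : I → ℤ} (hμ : μ ∈ O) (hl : co hh l = fun i => μ i • c) :
    ∀ {l' : T →* ℂˣ}, Mv cs hN w l l' → ∃ ν ∈ O, co hh l' = fun i => ν i • c := by
  obtain ⟨ω, rfl⟩ := cs.wordProd_surjective w
  induction ω with
  | nil =>
    intro l' hm
    rw [wordProd_nil] at hm
    refine ⟨μ, hμ, ?_⟩
    rw [← (mv_one l).unique hm, hl]
  | cons j ω ih =>
    intro l' hm
    obtain ⟨l'', hl''⟩ := exists_mv_to (cs := cs) (hN := hN) (cs.wordProd ω) l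
    obtain ⟨l3, hl3⟩ := exists_mv_to (cs := cs) (hN := hN) (cs.simple j) l''
    rw [wordProd_cons] at hm
    obtain ⟨ν, hν, e⟩ := ih hl''
    obtain ⟨ν', hν', e'⟩ := hO ν hν j
    refine ⟨ν', hν', ?_⟩
    rw [hm.unique (hl''.mul hl3), co_mv C h hl3, e, act_smul]
    exact funext e'

/-- homomorphisms of order three -/
theorem not_exists_three (hE : (Nat.card E).Coprime 3) : ¬ ∃ c : E →* ℂˣ, c ≠ 1 ∧ c ^ 3 = 1 := by
  rintro ⟨c, hc, h3⟩
  apply hc
  refine MonoidHom.ext fun x => ?_
  have h1 : c x ^ 3 = 1 := by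
    have := congrArg (fun f : E →* ℂˣ => f x) h3
    simpa using this
  have h2 : c x ^ Nat.card E = 1 := by rw [← map_pow, pow_card_eq_one', map_one]
  have h4 : orderOf (c x) ∣ Nat.gcd (Nat.card E) 3 :=
    Nat.dvd_gcd (orderOf_dvd_of_pow_eq_one h2) (orderOf_dvd_of_pow_eq_one h1)
  rw [hE, Nat.dvd_one, orderOf_eq_one_iff] at h4
  rw [h4, MonoidHom.one_apply]

end Co

section Rho

universe v

variable {I W : Type*} {Y : Type u} [Fintype I] [DecidableEq I] [Group W] [Group Y] {M : CoxeterMatrix I}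
  {cs : CoxeterSystem M W} {A : I → I → ℤ} {h : IsCartan M A} {p : ℕ} {T : Subgroup Y} {n : I → Y}
  {X : (I → ℤ) → Subgroup Y} (R : RGD cs h p T n X) [Finite W] [Finite Y] {V : Type v} [AddCommGroup V] [Module ℂ V]
  {ρ : Representation ℂ Y V} [FiniteDimensional ℂ V]

include R

/-- only the trivial character in `V^U`: `T` acts trivially -/
theorem VU_eq_of_forall (hT : ∀ s ∈ T, ∀ t ∈ T, s * t = t * s) (hall : ∀ l : T →* ℂˣ, Vl cs h T X ρ l ≠ ⊥ → l = 1) :
    VU cs h X ρ = Vl cs h T X ρ 1 := by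
  classical
  let _ : Fintype T := Fintype.ofFinite T
  refine le_antisymm (fun v hv => ?_) Vl_le
  have hav : ∀ x ∈ VU cs h X ρ, av ρ T x ∈ VU cs h X ρ := by
    intro x hx
    rw [av_apply]
    exact (VU cs h X ρ).smul_mem _ ((VU cs h X ρ).sum_mem fun t _ => rho_VU R (RGD.T_le_B t.2) hx)
  have hS : VU cs h X ρ ⊓ LinearMap.ker (av ρ T) = ⊥ := by
    by_contra hS
    obtain ⟨l, x, ⟨hx, hx'⟩, hx0, hxl⟩ := exists_eig hT hS fun t ht x hx =>
      ⟨rho_VU R (RGD.T_le_B ht) hx.1, by
        change av ρ T (ρ t x) = 0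
        rw [av_rho ρ ht]
        exact hx.2⟩
    have h1 : l = 1 := hall l fun hb => hx0 (by
      have h2 : x ∈ Vl cs h T X ρ l := ⟨hx, hxl⟩
      rwa [hb] at h2)
    subst h1
    apply hx0
    rw [← av_of_mem (ρ := ρ) (H := T) (v := x) (by rw [← eig_one]; exact hxl)]
    exact hx'
  have h1 : v - av ρ T v ∈ VU cs h X ρ ⊓ LinearMap.ker (av ρ T) := by
    refine ⟨(VU cs h X ρ).sub_mem hv (hav v hv), ?_⟩
    change av ρ T (v - av ρ T v) = 0
    rw [map_sub, av_idem, sub_self]
  rw [hS, Submodule.mem_bot, sub_eq_zero] at h1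
  refine ⟨hv, ?_⟩
  rw [eig_one, h1]
  exact av_mem ρ T v

omit [FiniteDimensional ℂ V] in
theorem Vl_one : Vl cs h T X ρ 1 = fx ρ (RGD.B cs h T X) := by
  rw [Vl_eq R, ← eig_one]
  congr 1

end Rho

end Cfsg.Agent.H650.OZ
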