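import Cfsg.Agent.H650.OZ.F4Comb
import Cfsg.Agent.H631.VZ.TorC
import Cfsg.Agent.H631.VZ.FFour

/-!
# S4842, row F4: the `T`-characters of `chevF4.group K` (helper650)

* `tco` : coordinates of the torus of `D.group K`, every tabulated `D`, `K` a finite field;
* `VB_F4` : `V^U = V^B ≠ 0` if `χ` does not vanish at an elliptic element of `L_{013}`, at one of `L_{023}` and, if `|K| ≡ 1 mod 3`,
  at one of `L_{012}` or of `L_{123}`.
-/

set_option autoImplicit false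
set_option linter.unusedSectionVars false

open Cfsg

namespace Cfsg.Agent.H650.OZ.FF

open CoxeterSystem Cfsg.Agent.ChevalleyStructure.CoxeterGeom Cfsg.Agent.Tits.Roots Cfsg.Agent.Tits.Core
  Cfsg.Agent.Tits.Exchange Cfsg.Agent.Nodes.Reps Cfsg.Agent.Nodes.BNOf Cfsg.Agent.Nodes.StabComb
  Cfsg.Agent.Nodes.Bruhat Cfsg.Agent.Nodes.OppDec Cfsg.Agent.Nodes.LeviDec Module Cfsg.Agent.H985.VZ
open Cfsg.Lie Cfsg.Lie.ChevalleyDatum
open Cfsg.Agent.ChevalleyStructure Cfsg.Agent.ChevalleyStructure.Elts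
  Cfsg.Agent.ChevalleyStructure.CoxeterGeomTypes Cfsg.Agent.ChevalleyStructure.NPerm
open Cfsg.Agent.Nodes Cfsg.Agent.Nodes.RGDChev
open Cfsg.Agent.KFacts.RgdField Cfsg.Agent.KFacts.RgdChevCoord Cfsg.Agent.BpExc.TorCent Cfsg.Agent.BpExc.TorChev
open Cfsg.Agent.H129.TorusChar Cfsg.Agent.H631.VZ

universe u v

section Tor

variable {D : ChevalleyDatum} {l : ℕ} {M : CoxeterMatrix (Fin l)} (hp : IsType D l M) {K : Type u} [Field K]

theorem pairing_sr_eq (A : Fin l → Fin l → ℤ) (i j : Fin l) : pairing A i (sr j) = A i j := by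
  unfold pairing
  rw [Finset.sum_eq_single j (fun k _ hk => by rw [sr_ne hk, mul_zero]) (by simp), sr_self, mul_one]

/-- **the coordinates of the torus** -/
theorem tco [Finite K] (p : ℕ) [Fact p.Prime] [CharP K p] : TCo (cartanOf D l) (TT D K) (nc hp K) (hh hp) where
  gen := by
    rw [eq_top_iff]
    intro t _
    have key : TT D K ≤ Subgroup.closure {g | ∃ (j : Fin l) (c : K), c ≠ 0 ∧ g = hc hp j c} := TT_le hp
    have h1 : Subgroup.closure {g | ∃ (j : Fin l) (c : K), c ≠ 0 ∧ g = hc hp j c} ≤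
        (⨆ i, (hh (K := K) hp i).range).map (TT D K).subtype := by
      rw [Subgroup.closure_le]
      rintro _ ⟨j, c, hc0, rfl⟩
      exact ⟨hh hp j (Units.mk0 c hc0), Subgroup.mem_iSup_of_mem j ⟨_, rfl⟩, rfl⟩
    obtain ⟨s, hs, e⟩ := h1 (key t.2)
    have h4 : s = t := Subtype.ext e
    rwa [← h4]
  conj i j x := by
    have R := rgd (K := K) hp M.toCoxeterSystem p
    have hg : Rp M.toCoxeterSystem R.nsys (M.toCoxeterSystem.simple j) (nc hp K j) :=
      rp_simple M.toCoxeterSystem R.nsys j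
    have ht' : nc hp K j * ((hh hp i x : TT D K) : ↥(D.group K)) * (nc hp K j)⁻¹ ∈ TT D K :=
      (Subgroup.mem_normalizer_iff.1 hg.mem_normalizer _).1 (Subtype.mem _)
    refine cX_inj hp ht' (Subtype.mem _) fun k => ?_
    have hk : (sr k : Fin l → ℤ) = rep M.toCoxeterSystem hp.isCartan (M.toCoxeterSystem.simple j)
        (rep M.toCoxeterSystem hp.isCartan (M.toCoxeterSystem.simple j) (sr k)) := by
      rw [← rep_mul_apply, simple_mul_simple_self, map_one, Module.End.one_apply]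
    conv_lhs => rw [hk, cX_rp hp M.toCoxeterSystem (fun _ _ => ⟨⊤, inferInstance, Set.subset_univ _⟩) p hg
      (Subtype.mem _)]
    rw [Subgroup.coe_mul, cX_mul hp (Subtype.mem _) (Subtype.mem _), Subgroup.coe_zpow, cX_zpow hp (Subtype.mem _),
      cX_hh, cX_hh, cX_hh, ← zpow_mul, ← zpow_add₀ x.ne_zero]
    congr 1
    rw [rep_simple_eq, sub_eq_add_neg, ← neg_smul, pairing_add, pairing_smul, pairing_sr_eq, pairing_sr_eq,
      pairing_sr_eq]
    ring

end Tor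

set_option backward.isDefEq.respectTransparency false in
theorem cartan_F4 : cartanOf chevF4 4 = AF := by
  have h1 : ∀ i j, cartanOf chevF4 4 i j = AF i j := by decide +kernel
  funext i j
  exact h1 i j

section F4

variable {K : Type u} [Field K] [Finite K] (p : ℕ) [Fact p.Prime] [CharP K p] {W : Type*} [Group W]
  (cs : CoxeterSystem CoxeterMatrix.F₄ W) (hp : IsType chevF4 4 CoxeterMatrix.F₄) {V : Type v} [AddCommGroup V]
  [Module ℂ V] [FiniteDimensional ℂ V] {ρ : Representation ℂ ↥(chevF4.group K) V}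

include p in
/-- **`V^U = V^B ≠ 0`** -/
theorem VB_F4 (hρ : ρ.IsIrreducible) {t₁ t₂ : ↥(chevF4.group K)}
    (ht₁ : Ell cs hp.isCartan (TT chevF4 K) (XX chevF4 4 K) {0, 1, 3} t₁) (hχ₁ : ρ.character t₁ ≠ 0)
    (ht₂ : Ell cs hp.isCartan (TT chevF4 K) (XX chevF4 4 K) {0, 2, 3} t₂) (hχ₂ : ρ.character t₂ ≠ 0)
    (h3 : Nat.card K % 3 = 1 →
      (∃ t, Ell cs hp.isCartan (TT chevF4 K) (XX chevF4 4 K) {0, 1, 2} t ∧ ρ.character t ≠ 0) ∨
        ∃ t, Ell cs hp.isCartan (TT chevF4 K) (XX chevF4 4 K) {1, 2, 3} t ∧ ρ.character t ≠ 0) :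
    VU cs hp.isCartan (XX chevF4 4 K) ρ ≠ ⊥ ∧
      VU cs hp.isCartan (XX chevF4 4 K) ρ = fx ρ (RGD.B cs hp.isCartan (TT chevF4 K) (XX chevF4 4 K)) ∧
      ∀ l : TT chevF4 K →* ℂˣ, Vl cs hp.isCartan (TT chevF4 K) (XX chevF4 4 K) ρ l ≠ ⊥ → l = 1 := by
  classical
  have := Fintype.ofFinite K
  have := finite_W hp cs
  have R := rgd (K := K) hp cs p
  have hG : GG cs hp.isCartan (TT chevF4 K) (XX chevF4 4 K) = ⊤ :=
    Cfsg.Agent.KFacts.RgdRigid.GG_eq_top (T := TT chevF4 K) (G1_eq_top hp cs)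
  have hT : ∀ s ∈ TT chevF4 K, ∀ t ∈ TT chevF4 K, s * t = t * s := fun s hs t ht =>
    cX_inj hp (mul_mem hs ht) (mul_mem ht hs) fun i => by rw [cX_mul hp hs ht, cX_mul hp ht hs, mul_comm]
  have h0 : VU cs hp.isCartan (XX chevF4 4 K) ρ ≠ ⊥ := VU_F4 R hG hρ ht₁ hχ₁ ht₂ hχ₂
  have h1 := eq_one R cartan_F4 (tco hp p) hG hT hρ h0 ht₁ hχ₁ ht₂ hχ₂ fun hc => by
    refine h3 ?_
    by_contra hcon
    refine not_exists_three ?_ hc
    have h4 : Nat.card K ≠ 0 := Nat.card_pos.ne'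
    have h5 : Nat.card Kˣ = Nat.card K - 1 := Nat.card_units K
    rw [h5, Nat.coprime_comm, Nat.Prime.coprime_iff_not_dvd Nat.prime_three]
    omega
  exact ⟨h0, h1.1.trans (Vl_one R), h1.2⟩

end F4

end Cfsg.Agent.H650.OZ.FF
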